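import Cfsg.Agent.H93.RC.Defs
import Cfsg.Agent.H106.RC.Use

/-!
# S3510, row F, even dimension: the boxes of `tools/plans/S3510_F_even_stubs.lean.txt` as `Prop`s (helper721)
-/

set_option autoImplicit false
open Cfsg

namespace Cfsg.Agent.H721.RC

open QuadraticMap MulAction
open Cfsg.Agent.LieClassical.OrthCore Cfsg.Agent.LieClassical.OrthTrans
open Cfsg.Agent.LieClassical.OrthSimple Cfsg.Agent.ClassicalGeometry.OrthSemi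
open Cfsg.Agent.ClassicalGeometry.OrthAut1 Cfsg.Agent.H106.RC Cfsg.Agent.H93.RC

/-- `D` is preserved by everything commuting with the `T i` -/
def BicInv {F V : Type} [Field F] [AddCommGroup V] [Module F V] {ι : Type} (T : ι → V ≃ₗ[F] V)
    (D : Submodule F V) : Prop :=
  ∀ f : V →ₗ[F] V, (∀ i v, f (T i v) = T i (f v)) → ∀ v ∈ D, f v ∈ D

/-- BOX B -/
def BoxB : Prop :=
  ∀ {F V : Type} [Field F] [Finite F] [AddCommGroup V] [Module F V] [FiniteDimensional F V]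
    {Q : QuadraticForm F V} {G Ω : Type} [Group G] [Finite G] [MulAction G Ω] [Nonempty Ω]
    {N : Subgroup G} {ρ : ↥(E Q) →* G} (_ : Good Q) (_ : Env G Ω N) (_ : Rep Q N ρ)
    (_ : IH (Nat.card (P Q))) {p : ℕ} [CharP F p] {ι : Type} [Finite ι] {x : ι → G}
    {M : ι → Gam Q} {r : ι → ℕ} (_ : ∀ i, Lf ρ (x i) (M i)) (_ : ∀ i, IsLin (M i)) (_ : PF x r)
    (_ : Cov Ω x) (_ : 8 ≤ Module.finrank F V) (_ : ¬ (Nat.card F = 2 ∧ Module.finrank F V = 8))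
    (W W' : Submodule F V) (_ : IsCompl W W') (_ : ∀ v ∈ W, Q v = 0) (_ : ∀ v ∈ W', Q v = 0)
    (_ : ∀ i, ∀ v ∈ W, (M i).1 v ∈ W) (_ : ∀ i, ∀ v ∈ W', (M i).1 v ∈ W'), False

/-- BOX C -/
def BoxC : Prop :=
  ∀ {F V : Type} [Field F] [Finite F] [AddCommGroup V] [Module F V] [FiniteDimensional F V]
    {Q : QuadraticForm F V} {G Ω : Type} [Group G] [Finite G] [MulAction G Ω] [Nonempty Ω]
    {N : Subgroup G} {ρ : ↥(E Q) →* G} (_ : Good Q) (_ : Env G Ω N) (_ : Rep Q N ρ)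
    (_ : IH (Nat.card (P Q))) {p : ℕ} [CharP F p] {ι : Type} [Finite ι] {x : ι → G}
    {M : ι → Gam Q} {r : ι → ℕ} (_ : ∀ i, Lf ρ (x i) (M i)) (_ : ∀ i, IsLin (M i)) (_ : PF x r)
    (_ : Cov Ω x) (_ : 8 ≤ Module.finrank F V) (κ : V →ₗ[F] V) (s t : F)
    (_ : ∀ v, κ (κ v) = s • κ v - t • v) (_ : ∀ a : F, a * a - s * a + t ≠ 0)
    (_ : ∀ v, Q (κ v) = t * Q v) (_ : ∀ i v, (M i).1 (κ v) = κ ((M i).1 v)), False

/-- BOX D5 -/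
def BoxD5 : Prop :=
  ∀ {F V : Type} [Field F] [Finite F] [AddCommGroup V] [Module F V] [FiniteDimensional F V]
    {Q : QuadraticForm F V} {G Ω : Type} [Group G] [Finite G] [MulAction G Ω] [Nonempty Ω]
    {N : Subgroup G} {ρ : ↥(E Q) →* G} (_ : Good Q) (_ : Env G Ω N) (_ : Rep Q N ρ)
    (_ : IH (Nat.card (P Q))) {p : ℕ} [CharP F p] {ι : Type} [Finite ι] {x : ι → G}
    {M : ι → Gam Q} {r : ι → ℕ} (_ : ∀ i, Lf ρ (x i) (M i)) (_ : ∀ i, IsLin (M i)) (_ : PF x r)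
    (_ : Cov Ω x) (_ : 10 ≤ Module.finrank F V) (κ : V →ₗ[F] V) (s t : F)
    (_ : ∀ v, κ (κ v) = s • κ v - t • v) (_ : ∀ a : F, a * a - s * a + t ≠ 0)
    (_ : ∀ v w, polar Q (κ v) w = polar Q v (κ w)) (_ : (2 : F) = 0 → ∀ v, polar Q v (κ v) = 0)
    (_ : ∀ i v, (M i).1 (κ v) = κ ((M i).1 v)), False

/-- BOX D4m -/
def BoxD4m : Prop :=
  ∀ {F V : Type} [Field F] [Finite F] [AddCommGroup V] [Module F V] [FiniteDimensional F V]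
    {Q : QuadraticForm F V} {G Ω : Type} [Group G] [Finite G] [MulAction G Ω] [Nonempty Ω]
    {N : Subgroup G} {ρ : ↥(E Q) →* G} (_ : Good Q) (_ : Env G Ω N) (_ : Rep Q N ρ)
    (_ : IH (Nat.card (P Q))) {p : ℕ} [CharP F p] {ι : Type} [Finite ι] {x : ι → G}
    {M : ι → Gam Q} {r : ι → ℕ} (_ : ∀ i, Lf ρ (x i) (M i)) (_ : ∀ i, IsLin (M i)) (_ : PF x r)
    (_ : Cov Ω x) (_ : Module.finrank F V = 8) (κ : V →ₗ[F] V) (s t : F)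
    (_ : ∀ v, κ (κ v) = s • κ v - t • v) (_ : ∀ a : F, a * a - s * a + t ≠ 0)
    (_ : ∀ v w, polar Q (κ v) w = polar Q v (κ w)) (_ : (2 : F) = 0 → ∀ v, polar Q v (κ v) = 0)
    (_ : ∀ i v, (M i).1 (κ v) = κ ((M i).1 v))
    (_ : ∀ U : Submodule F V, (∀ v ∈ U, Q v = 0) → (∀ v ∈ U, κ v ∈ U) → Module.finrank F U ≠ 4), False

/-- BOX D4p -/
def BoxD4p : Prop :=
  ∀ {F V : Type} [Field F] [Finite F] [AddCommGroup V] [Module F V] [FiniteDimensional F V]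
    {Q : QuadraticForm F V} {G Ω : Type} [Group G] [Finite G] [MulAction G Ω] [Nonempty Ω]
    {N : Subgroup G} {ρ : ↥(E Q) →* G} (_ : Good Q) (_ : Env G Ω N) (_ : Rep Q N ρ)
    (_ : IH (Nat.card (P Q))) {p : ℕ} [CharP F p] {ι : Type} [Finite ι] {x : ι → G}
    {M : ι → Gam Q} {r : ι → ℕ} (_ : ∀ i, Lf ρ (x i) (M i)) (_ : ∀ i, IsLin (M i)) (_ : PF x r)
    (_ : Cov Ω x) (_ : Module.finrank F V = 8) (κ : V →ₗ[F] V) (s t : F)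
    (_ : ∀ v, κ (κ v) = s • κ v - t • v) (_ : ∀ a : F, a * a - s * a + t ≠ 0)
    (_ : ∀ v w, polar Q (κ v) w = polar Q v (κ w)) (_ : (2 : F) = 0 → ∀ v, polar Q v (κ v) = 0)
    (_ : ∀ i v, (M i).1 (κ v) = κ ((M i).1 v))
    (U : Submodule F V) (_ : ∀ v ∈ U, Q v = 0) (_ : ∀ v ∈ U, κ v ∈ U)
    (_ : Module.finrank F U = 4)
    (_ : ∀ i, r i = 2 → (∃ a b : F, ∀ v, (M i).1 v = a • v + b • κ v) ∨
      ((2 : F) = 0 ∧ ((∀ v ∈ U, (M i).1 v ∈ U) ∨ ∀ v ∈ U, (M i).1 v ∈ U → v = 0))), False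

/-- BOX E0 (norm form of a linear lift, `n` even). -/
def BoxE0 : Prop :=
  ∀ {F V : Type} [Field F] [Finite F] [AddCommGroup V] [Module F V] [FiniteDimensional F V]
    {Q : QuadraticForm F V} (_ : Good Q) {p : ℕ} [CharP F p] (M : Gam Q) (_ : IsLin M) {r : ℕ}
    (_ : r.Prime) (_ : IsScal (M ^ r)),
    (∃ (T : V ≃ₗ[F] V) (a : F), T ∈ O Q ∧ T ^ r = 1 ∧ a ≠ 0 ∧ ∀ v, M.1 v = a • T v) ∨
    (r = 2 ∧ p ≠ 2 ∧ ∃ c : F, c ≠ 0 ∧ (∀ v, M.1 (M.1 v) = c • v) ∧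
      ((∀ v, Q (M.1 v) = -c * Q v) ∨ ((∀ v, Q (M.1 v) = c * Q v) ∧ ¬ IsSquare c)))

/-- the final situation: commuting isometries `T i` of prime orders `r i` -/
def Fin8 (p : ℕ) (C : ∀ {F V G Ω : Type} [Field F] [AddCommGroup V] [Module F V] [Group G] [MulAction G Ω]
    (Q : QuadraticForm F V) (ι : Type) (x : ι → G) (r : ι → ℕ) (T : ι → V ≃ₗ[F] V), Prop) : Prop :=
  ∀ {F V : Type} [Field F] [Finite F] [AddCommGroup V] [Module F V] [FiniteDimensional F V]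
    {Q : QuadraticForm F V} {G Ω : Type} [Group G] [Finite G] [MulAction G Ω] [Nonempty Ω]
    {N : Subgroup G} {ρ : ↥(E Q) →* G} (_ : Good Q) (_ : Env G Ω N) (_ : Rep Q N ρ)
    (_ : IH (Nat.card (P Q))) [CharP F p] {ι : Type} [Finite ι] {x : ι → G}
    {M : ι → Gam Q} {r : ι → ℕ} (_ : ∀ i, Lf ρ (x i) (M i)) (_ : PF x r)
    (_ : Cov Ω x) (_ : 8 ≤ Module.finrank F V) (_ : Even (Module.finrank F V))
    (T : ι → V ≃ₗ[F] V) (_ : ∀ i, T i ∈ O Q) (_ : ∀ i v, (M i).1 v = T i v)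
    (_ : ∀ i, T i ^ r i = 1) (_ : ∀ i j, T i * T j = T j * T i), C (Ω := Ω) Q ι x r T

/-- BOX H -/
def BoxH : Prop := ∀ p : ℕ, Fin8 p (fun {F V _ _ _ _ _ _ _} Q ι _ r T =>
  ∃ D : Submodule F V, D ≠ ⊥ ∧ D ≠ ⊤ ∧ Nondeg (Q.comp D.subtype) ∧
    BicInv (fun i : {i : ι // r i ≠ p} => T i) D)

/-- BOX E5 -/
def BoxE5 : Prop := ∀ p : ℕ, Fin8 p (fun {F V _ _ _ _ _ _ _} Q ι _ r T =>
  (∃ D : Submodule F V, D ≠ ⊥ ∧ D ≠ ⊤ ∧ Nondeg (Q.comp D.subtype) ∧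
    BicInv (fun i : {i : ι // r i ≠ p} => T i) D) → (∀ i, r i ≠ p) → False)

/-- BOX E6 -/
def BoxE6 : Prop := ∀ p : ℕ, Fin8 p (fun {F V _ _ _ _ _ _ _} Q ι _ r T =>
  (∃ D : Submodule F V, D ≠ ⊥ ∧ D ≠ ⊤ ∧ Nondeg (Q.comp D.subtype) ∧
    BicInv (fun i : {i : ι // r i ≠ p} => T i) D) → p ≠ 2 → ∀ i₀, r i₀ = p → False)

/-- BOX E7 -/
def BoxE7 : Prop := Fin8 2 (fun {F V _ _ _ _ _ _ _} Q ι _ r T =>
  (∃ D : Submodule F V, D ≠ ⊥ ∧ D ≠ ⊤ ∧ Nondeg (Q.comp D.subtype) ∧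
    BicInv (fun i : {i : ι // r i ≠ 2} => T i) D) → ∀ i₀, r i₀ = 2 → False)

end Cfsg.Agent.H721.RC
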