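import Cfsg.Agent.H195.RC.MixFrame
import Cfsg.Agent.H195.RC.TwLong
import Cfsg.Agent.H579.RC.MixLin
import Cfsg.Agent.H531.RC.Det
import Cfsg.Agent.H188.RC.InvFin
import Cfsg.Agent.H338.RC.DeadSL
import Cfsg.Agent.H338.RC.DeadSU

/-!
# S3510, triality of type iii: the mixed case (text of helper195, with the landed boxes)
-/

set_option autoImplicit false
open Cfsg

namespace Cfsg.Agent.H721.RC.Mix

open Module QuadraticMap MulAction
open Cfsg.Agent.LieClassical.OrthCore Cfsg.Agent.LieClassical.OrthTrans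
open Cfsg.Agent.LieClassical.OrthSimple Cfsg.Agent.ClassicalGeometry.OrthSemi
open Cfsg.Agent.ClassicalGeometry.OrthAut1 Cfsg.Agent.H106.RC Cfsg.Agent.H93.RC Cfsg.Agent.H566.RC
open Cfsg.Agent.LieClassical.QuadForms Cfsg.Agent.ClassicalGeometry.TrialityOct
open Cfsg.Agent.ClassicalGeometry.Triality Cfsg.Agent.ClassicalGeometry.TrialitySpaces
open Cfsg.Agent.H198.TriBase Cfsg.Agent.H198.TriAut Cfsg.Agent.H206.Balance Cfsg.Agent.H198.TriDia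
open Cfsg.Agent.H198.TwComp Cfsg.Agent.H198 Cfsg.Agent.H864.RC
open Cfsg.Agent.H195.RC Cfsg.Agent.H195.RC.Mix Cfsg.Agent.H531.RC Cfsg.Agent.H188.RC.Inv Cfsg.Agent.H338.RC

variable {F : Type} [Field F]

section env
variable {G Ω ι : Type} [Group G] [MulAction G Ω] {N : Subgroup G} {hG : Good (plusForm 4 F)}
  {κ : P8 F →* G} {s : F ≃+* F} {x₁ : G} {x : ι → G} {r : ι → ℕ} {g : ι → (V8 F ≃ₗ[F] V8 F)}

/-- `mix_lin` for the whole family -/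
theorem lin1 [Finite F] [Finite ι] {p : ℕ} [CharP F p] (h : T3 hG N κ s Ω x₁ x r g) (i₀ j₀ : ι)
    (hi : r i₀ = p) (hj : r j₀ ≠ p) (h2 : ∀ i, r i ≠ p → r i ≠ 2) : Lin1 g := by
  have hp : p.Prime := by rw [← hi]; exact h.prime i₀
  have key := mix_lin (ι := {i // r i ≠ p}) hp hG (g := fun i => g i.1) (fun i => (h.mem i.1).1)
    (r := fun i => r i.1) (fun i => h.prime i.1) (fun i => i.2) (fun i => h2 i.1 i.2) (fun i => h.pow i.1)
    (fun i j => h.comm i.1 j.1) ⟨j₀, hj⟩ (h.ne1 j₀) (u := g i₀) (h.mem i₀).1 (by rw [← hi]; exact h.pow i₀)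
    (h.ne1 i₀) (fun i => h.comm i₀ i.1)
  have hall : ∀ c : V8 F ≃ₗ[F] V8 F, (∀ i : {i // r i ≠ p}, c * g i.1 = g i.1 * c) → c * g i₀ = g i₀ * c →
      ∀ i, c * g i = g i * c := by
    intro c h4 h5 i
    by_cases h6 : r i = p
    · rw [h.inj (h6.trans hi.symm)]; exact h5
    · exact h4 ⟨i, h6⟩
  rcases key with ⟨n0, hn0, hL⟩ | hL
  · refine Or.inl ⟨n0, hn0, fun n hn hodd => ?_⟩
    obtain ⟨c, hc, τ, W, hW0, hord, hcg, hcu, hrest⟩ := hL n hn hodd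
    exact ⟨c, hc, τ, W, hW0, hord, hall c hcg hcu, hrest⟩
  · refine Or.inr fun l hl hl2 hd => ?_
    obtain ⟨c, hc, hcl, hc1, hcg, hcu⟩ := hL l hl hl2 hd
    exact ⟨c, hc, hcl, hc1, hall c hcg hcu⟩

theorem exists_q0 [Finite F] (h : T3 hG N κ s Ω x₁ x r g) : ∃ q0, Nat.card F = q0 ^ 3 := by
  obtain ⟨p, k, n, -, -, -, hq, -, -⟩ := Cfsg.Agent.H393.TZ.numbers h.cube h.ne
  exact ⟨_, hq⟩

/-- a member of the family has order dividing `q0² + q0 + 1` or `q0² - q0 + 1`; hence the alternatives of `det_mult` -/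
theorem alternatives [Finite F] [Finite G] [Finite ι] {p : ℕ} [CharP F p] (h : T3 hG N κ s Ω x₁ x r g)
    (hN : NoN Ω N) (i₀ j₀ : ι) (hi : r i₀ = p) (hj : r j₀ ≠ p) (h2 : ∀ i, r i ≠ p → r i ≠ 2) :
    (finrank F (LinearMap.range ((g i₀ : V8 F →ₗ[F] V8 F) - LinearMap.id)) = 2 ∧
      ∀ v, plusForm 4 F (g i₀ v - v) = 0) ∨
    ∃ i, r i ≠ 2 ∧ (
    (∃ a b : F, a ≠ 0 ∧ b ≠ 0 ∧ a * a ≠ 1 ∧ b * b ≠ 1 ∧ a ≠ b ∧ a * b ≠ 1 ∧ finrank F (Eg (g i) a) = 3 ∧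
      finrank F (Eg (g i) a⁻¹) = 3 ∧ finrank F (Eg (g i) b) = 1 ∧ finrank F (Eg (g i) b⁻¹) = 1) ∨
    (∃ (W : Submodule F (V8 F)) (τ τ' : F), finrank F W = 6 ∧
      (∀ v ∈ W, (∀ w ∈ W, polar (plusForm 4 F) v w = 0) → v = 0) ∧ τ ≠ τ' ∧
      (∀ v ∈ W, g i (g i v) + v = τ • g i v) ∧
      (∀ v, (∀ w ∈ W, polar (plusForm 4 F) v w = 0) → g i (g i v) + v = τ' • g i v) ∧
      (∀ v ∈ W, ∀ a : F, g i v = a • v → v = 0) ∧
      (∀ v, (∀ w ∈ W, polar (plusForm 4 F) v w = 0) → ∀ a : F, g i v = a • v → v = 0))) := by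
  have hp : p.Prime := by rw [← hi]; exact h.prime i₀
  obtain ⟨q0, hq⟩ := exists_q0 h
  have hq2 : 2 ≤ q0 := by
    have hcard : 1 < Nat.card F := Finite.one_lt_card
    by_contra hcon
    have : q0 = 0 ∨ q0 = 1 := by omega
    rcases this with h0 | h0 <;> rw [hq, h0] at hcard <;> norm_num at hcard
  obtain ⟨i, hd⟩ := frame h hN hq (lin1 h i₀ j₀ hi hj h2)
  have hi2 : r i ≠ 2 := by
    obtain ⟨m, hm⟩ := Nat.exists_eq_add_of_le' (show 1 ≤ q0 by omega)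
    rw [hm] at hd
    rcases hd with hd | hd
    · exact MixArith.ne_two_of_odd (MixArith.odd_plus m) hd
    · exact MixArith.ne_two_of_odd (MixArith.odd_minus m) hd
  rcases det_mult h.cube h.ne hq (h.mem i) (h.mem i₀) (h.prime i) (h.three i) hd (h.pow i) (h.ne1 i) hp
    (by rw [← hi]; exact h.pow i₀) (h.ne1 i₀) (h.comm i₀ i) with h3 | h3
  · exact Or.inl h3
  · exact Or.inr ⟨i, hi2, h3⟩

/-- **MIXED** -/
theorem dead_mixed [Finite F] [Finite G] [Finite ι] [Nonempty Ω] {p : ℕ} [CharP F p]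
    (h : T3 hG N κ s Ω x₁ x r g) (hIH : IH (Nat.card N)) (hN : NoN Ω N) (i₀ j₀ : ι) (hi : r i₀ = p)
    (hj : r j₀ ≠ p) : False := by
  have hp : p.Prime := by rw [← hi]; exact h.prime i₀
  by_cases h2 : ∀ i, r i ≠ p → r i ≠ 2
  · rcases alternatives h hN i₀ j₀ hi hj h2 with ⟨h3, h4⟩ | ⟨i, hi2, h3 | h3⟩
    · exact dead_long h i₀ hi h3 h4
    · obtain ⟨a, b, ha, hb, haa, hbb, hab, hab1, k1, k2, k3, k4⟩ := h3
      exact dead_sl3 h hIH hN i hi2 ha hb haa hbb hab hab1 k1 k2 k3 k4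
    · obtain ⟨W, τ, τ', hW, hWn, hτ, k1, k2, k3, k4⟩ := h3
      exact dead_su3 h hIH hN i hi2 W hW hWn τ τ' hτ k1 k2 k3 k4
  · push Not at h2
    obtain ⟨i, h3, h4⟩ := h2
    refine dead_inv h hIH hN ?_ i h4
    intro h5
    apply h3
    rw [h4]
    have h6 : ((2 : ℕ) : F) = 0 := by exact_mod_cast h5
    rw [CharP.cast_eq_zero_iff F p] at h6
    exact ((Nat.prime_dvd_prime_iff_eq hp Nat.prime_two).1 h6).symm

end env

end Cfsg.Agent.H721.RC.Mix
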